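import Mathlib
import Cfsg.Agent.Lib.Ree.Torus
import Cfsg.Agent.Lib.Ree.Aut

/-!
# Squares of regular classes in the small Ree groups: definitions
-/

set_option autoImplicit false
set_option linter.unusedSectionVars false

namespace CfsgLib.RCS

open CfsgLib.Ree

/-- `x` has order greater than two and prime to three. -/
def Reg {G : Type*} [Group G] (x : G) : Prop := 2 < orderOf x ∧ ¬ 3 ∣ orderOf x

/-- `g` is a product of two conjugates of `x`. -/
def Sq {G : Type*} [Group G] (x g : G) : Prop := ∃ u v : G, g = u * x * u⁻¹ * (v * x * v⁻¹)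

section
variable {G : Type*} [Group G]

theorem Reg.of_isConj {x y : G} (h : Reg x) (hc : IsConj x y) : Reg y := by
  obtain ⟨c, rfl⟩ := isConj_iff.1 hc
  unfold Reg at *
  rwa [orderOf_conj]

theorem Reg.not_dvd_two {x : G} (h : Reg x) : ¬ orderOf x ∣ 2 := fun hd =>
  absurd (Nat.le_of_dvd two_pos hd) (not_le.2 h.1)

theorem Reg.sq_ne_one {x : G} (h : Reg x) : x * x ≠ 1 := fun e =>
  h.not_dvd_two (orderOf_dvd_of_pow_eq_one (by rw [pow_two, e]))

theorem sq_mul {x y y' : G} (h : IsConj x y) (h' : IsConj x y') : Sq x (y * y') := by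
  obtain ⟨u, rfl⟩ := isConj_iff.1 h
  obtain ⟨v, rfl⟩ := isConj_iff.1 h'
  exact ⟨u, v, rfl⟩

theorem Sq.of_isConj {x g g' : G} (h : Sq x g) (hc : IsConj g g') : Sq x g' := by
  obtain ⟨u, v, rfl⟩ := h
  obtain ⟨c, rfl⟩ := isConj_iff.1 hc
  exact ⟨c * u, c * v, by group⟩

theorem isConj_inv_inv {x y : G} (h : IsConj x y) : IsConj x⁻¹ y⁻¹ := by
  obtain ⟨u, rfl⟩ := isConj_iff.1 h
  exact isConj_iff.2 ⟨u, by group⟩

/-- For a real class, quotients of two members lie in the square of the class. -/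
theorem sq_inv_mul {x y y' : G} (hr : IsConj x x⁻¹) (h : IsConj x y) (h' : IsConj x y') : Sq x (y⁻¹ * y') :=
  sq_mul (hr.trans (isConj_inv_inv h)) h'

theorem sq_mul_inv {x y y' : G} (hr : IsConj x x⁻¹) (h : IsConj x y) (h' : IsConj x y') : Sq x (y * y'⁻¹) :=
  sq_mul h (hr.trans (isConj_inv_inv h'))

end

variable {K : Type*} [Field K] [CharP K 3] {φ : K →+* K} {G : Type*} [Group G] (M : Model G K φ)

/-- The trace in the seven-dimensional representation. -/
def tr (g : G) : K := Matrix.trace (M.ρ g)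

theorem tr_mul_comm (g h : G) : tr M (g * h) = tr M (h * g) := by
  unfold tr
  rw [map_mul, map_mul, Matrix.trace_mul_comm]

theorem tr_of_isConj {g h : G} (hc : IsConj g h) : tr M g = tr M h := by
  obtain ⟨c, rfl⟩ := isConj_iff.1 hc
  rw [tr_mul_comm, ← mul_assoc, inv_mul_cancel, one_mul]

/-- The trace on the big cell. -/
theorem tr_n_h_u (l : Kˣ) (a b c : K) :
    tr M (M.n * M.h l * M.u a b c) =
      -1 - l * nrm φ a b c - φ l / l * (φ a * c - b ^ 2 + φ a * a * b) + l ^ 2 / φ l * a ^ 2 := by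
  unfold tr
  rw [map_mul, map_mul, M.ρn, M.ρh, M.ρu, mul_assoc, Matrix.trace, Fin.sum_univ_seven]
  simp only [Matrix.diag_apply, nmat_mul_apply']
  have e0 : (0 : Fin 7).rev = 6 := rfl
  have e1 : (1 : Fin 7).rev = 5 := rfl
  have e2 : (2 : Fin 7).rev = 4 := rfl
  have e3 : (3 : Fin 7).rev = 3 := rfl
  have e4 : (4 : Fin 7).rev = 2 := rfl
  have e5 : (5 : Fin 7).rev = 1 := rfl
  have e6 : (6 : Fin 7).rev = 0 := rfl
  rw [e0, e1, e2, e3, e4, e5, e6]
  simp only [nrm, hM, dmat, uM, umat, Matrix.mul_apply, Fin.sum_univ_seven]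
  simp
  ring

theorem tr_n_h_c (l : Kˣ) (c : K) : tr M (M.n * M.h l * M.u 0 0 c) = -1 + l * c ^ 2 := by
  rw [tr_n_h_u, nrm_eq]
  simp

/-- The trace on the Borel subgroup. -/
theorem tr_u_h (a b c : K) (l : Kˣ) :
    tr M (M.u a b c * M.h l) =
      l + φ l / l + l ^ 2 / φ l + 1 + φ l / l ^ 2 + l / φ l + (l : K)⁻¹ := by
  unfold tr
  rw [map_mul, M.ρh, M.ρu, Matrix.trace, Fin.sum_univ_seven]
  simp only [Matrix.diag_apply, hM, dmat, uM, umat, Matrix.mul_apply, Fin.sum_univ_seven]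
  simp

theorem tr_u (a b c : K) : tr M (M.u a b c) = 1 := by
  have h := tr_u_h M a b c 1
  rw [M.h_one, mul_one] at h
  rw [h]
  have := three_eq_zero K
  simp
  linear_combination 2 * this

theorem tr_u_z (a b c : K) : tr M (M.u a b c * M.z) = -1 := by
  rw [Model.z, tr_u_h]
  simp

end CfsgLib.RCS
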