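import Mathlib
import Cfsg.Agent.Lib.RCS.Defs

/-! # RCS/CENT: centraliser orders (plans/RCS.md) -/

set_option autoImplicit false
set_option linter.unusedSectionVars false

namespace CfsgLib.RCS

open CfsgLib.Ree

theorem card_cent_le {G α : Type*} [Group G] [Finite α] {x : G} (g : G) (f : α → G)
    (h : ∀ v, v * (g * x * g⁻¹) = g * x * g⁻¹ * v → ∃ a, f a = v) :
    Nat.card (Subgroup.centralizer ({x} : Set G)) ≤ Nat.card α := by
  choose k hk using fun v : Subgroup.centralizer ({x} : Set G) =>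
    h _ (conj_comm (g := g) (Subgroup.mem_centralizer_singleton_iff.1 v.2))
  exact Nat.card_le_card_of_injective k fun v w e =>
    Subtype.ext ((MulAut.conj g).injective ((hk v).symm.trans (e ▸ hk w)))

variable {K : Type*} [Field K] [CharP K 3] [Finite K] {φ : K →+* K} {G : Type*} [Group G] (M : Model G K φ)

include M in
/-- An element of order greater than two and prime to three is conjugate into one of the four tori. -/
theorem reg_tori (hφ : IsTits φ) {A₁ A₂ : Subgroup G} (h₁ : IsAniso (Nat.card K) A₁) (h₂ : IsAniso (Nat.card K) A₂)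
    (hc : Nat.card A₁ * Nat.card A₂ = nq (Nat.card K)) {x : G} (hx : Reg x) :
    ∃ g : G, g * x * g⁻¹ ∈ M.H ∨ g * x * g⁻¹ ∈ M.Tp hφ ∨ g * x * g⁻¹ ∈ A₁ ∨ g * x * g⁻¹ ∈ A₂ := by
  have := M.finite
  obtain ⟨p, hp, h2, hd⟩ := M.exists_odd_prime hφ hx.not_dvd_two
  rcases M.prime_cases hφ hp hd with rfl | h | h | h
  · exact absurd hd hx.2
  · exact ((M.sc_H hφ).exists_conj_mem hp h2 (M.card_H ▸ h) hd).imp fun _ => Or.inl
  · exact ((M.sc_Tp hφ).exists_conj_mem hp h2 (M.card_Tp hφ ▸ h) hd).imp fun _ h => Or.inr (Or.inl h)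
  · rcases (hp.dvd_mul.1 (hc ▸ h :)) with h | h
    · exact (h₁.sc.exists_conj_mem hp h2 h hd).imp fun _ h => Or.inr (Or.inr (Or.inl h))
    · exact (h₂.sc.exists_conj_mem hp h2 h hd).imp fun _ h => Or.inr (Or.inr (Or.inr h))

include M in
theorem card_cent_reg (hφ : IsTits φ) {m : ℕ} (hm : 1 ≤ m) (hK : Nat.card K = 3 ^ (2 * m + 1)) {x : G} (hx : Reg x) :
    Nat.card (Subgroup.centralizer ({x} : Set G)) ≤ 2 * Nat.card K := by
  have := M.finite
  obtain ⟨A₁, A₂, h₁, h₂, c₁, c₂, -, -, hc⟩ := M.exists_two_tori hφ hm hK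
  have h : ∀ (g : G) (T : Subgroup G), SC T → g * x * g⁻¹ ∈ T →
      Nat.card (Subgroup.centralizer ({x} : Set G)) ≤ Nat.card T := fun g T hT h =>
    card_cent_le g T.subtype fun v hv => ⟨⟨v, (hT.mem_iff h (conj_sq_ne_one hx.sq_ne_one)).2 hv⟩, rfl⟩
  have h3 : 3 ^ (m + 1) < 3 ^ (2 * m + 1) := Nat.pow_lt_pow_right (by decide) (by omega)
  have h4 : 0 < 3 ^ (m + 1) := by positivity
  obtain ⟨g, e | e | e | e⟩ := reg_tori M hφ h₁ h₂ hc hx
  · exact (h g _ (M.sc_H hφ) e).trans (by rw [M.card_H]; omega)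
  · exact (h g _ (M.sc_Tp hφ) e).trans (by rw [M.card_Tp]; omega)
  · exact (h g _ h₁.sc e).trans (by omega)
  · exact (h g _ h₂.sc e).trans (by omega)

/-- The classes with large centralisers. -/
theorem cases_g (hφ : IsTits φ) {m : ℕ} (hm : 1 ≤ m) (hK : Nat.card K = 3 ^ (2 * m + 1)) {g : G} (hg : g ≠ 1) :
    g * g = 1 ∨ (∃ c, c ≠ 0 ∧ IsConj (M.u 0 0 c) g) ∨ (∃ b c, b ≠ 0 ∧ IsConj (M.u 0 b c) g) ∨
      Nat.card (Subgroup.centralizer ({g} : Set G)) ≤ 3 * Nat.card K := by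
  have := M.finite
  have h3 := three_eq_zero K
  by_cases h : 3 ∣ orderOf g
  swap
  · by_cases h2 : g * g = 1
    · exact Or.inl h2
    refine Or.inr (Or.inr (Or.inr ((card_cent_reg M hφ hm hK ⟨not_le.1 fun e => ?_, h⟩).trans (by omega))))
    have := orderOf_pos g
    have := mt orderOf_eq_one_iff.1 hg
    exact h2 (by rw [← sq, ← show orderOf g = 2 by omega, pow_orderOf_eq_one])
  obtain ⟨k, hk, -⟩ := M.exists_conj_mem_B_of_comm hφ h rfl
  have hc : IsConj (k * g * k⁻¹) g := (isConj_iff.2 ⟨k, rfl⟩).symm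
  refine Or.inr ?_
  obtain ⟨b, c, h1, e⟩ | ⟨a, b, c, h1, e⟩ | ⟨a, b, c, h1, e⟩ := M.three_dvd_cases hφ hk (by rwa [orderOf_conj])
  · by_cases hb : b = 0
    · exact Or.inl ⟨c, h1.resolve_left (not_not.2 hb), by rw [hb] at e; exact e ▸ hc⟩
    · exact Or.inr (Or.inl ⟨b, c, hb, e ▸ hc⟩)
  · refine Or.inr (Or.inr ((card_cent_le k (fun p : Fin 3 × K => (fun x => M.u x ((b * x + φ a * x * a - φ a * x ^ 2 -
      φ x * a * x + φ x * a ^ 2) / a) p.2) (![0, a, -a] p.1)) fun v hv => ?_).trans_eq (by simp)))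
    rw [e] at hv
    obtain ⟨x, y, w, l, rfl⟩ := M.mem_B_of_conj hφ (M.u_mem_U hφ a b c) (fun h => h1 (M.u_eq_one h).1)
      (mul_inv_eq_iff_eq_mul.2 hv ▸ M.u_mem_B hφ a b c)
    rw [mul_assoc, M.h_mul_u hφ, ← mul_assoc, ← mul_assoc, M.u_mul hφ, M.u_mul hφ] at hv
    obtain ⟨e1, e2, e3, -⟩ := M.u_h_inj hv
    obtain rfl : l = 1 := Units.ext (hφ.eq_one_of_sq l.ne_zero (mul_right_cancel₀ h1 (by linear_combination e1)))
    simp only [Units.val_one, map_one, one_pow, div_one, one_mul] at e2 e3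
    have e4 : φ (x / a) = x / a := by
      rw [map_div₀, div_eq_div_iff ((map_ne_zero φ).2 h1) h1]; linear_combination e2
    have e5 := hφ (x / a)
    rw [e4, e4] at e5
    have e6 : x * (x - a) * (x + a) = 0 := by field_simp at e5; linear_combination -e5
    obtain ⟨i, rfl⟩ : ∃ i, ![0, a, -a] i = x := by
      rcases mul_eq_zero.1 e6 with e | e
      · exact (mul_eq_zero.1 e).elim (fun e => ⟨0, e.symm⟩) fun e => ⟨1, (sub_eq_zero.1 e).symm⟩
      · exact ⟨2, (eq_neg_of_add_eq_zero_left e).symm⟩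
    exact ⟨(i, w), by rw [M.h_one, mul_one]; exact congrArg (M.u _ · w) (by rw [div_eq_iff h1]; linear_combination e3)⟩
  · refine Or.inr (Or.inr ((card_cent_le k (fun p : Bool × K => bif p.1 then M.u 0 p.2 (-(p.2 * a)) else
      M.u a p.2 (c - b * a + p.2 * a) * M.z) fun v hv => ?_).trans (by simp)))
    rw [e] at hv
    have h2 := (show Commute v _ from hv).mul_right hv
    rw [M.u_z_sq hφ] at h2
    have h4 := sub_ne_zero.2 h1.symm
    obtain ⟨x, y, w, l, rfl⟩ := M.mem_B_of_conj hφ (M.u_mem_U hφ _ _ _) (fun h => h4 (M.u_eq_one h).2.1)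
      (mul_inv_eq_iff_eq_mul.2 h2.eq ▸ M.u_mem_B hφ _ _ _)
    rw [Commute, SemiconjBy, mul_assoc, M.h_mul_u hφ, ← mul_assoc, ← mul_assoc, M.u_mul hφ, M.u_mul hφ] at h2
    rw [mul_assoc, ← mul_assoc (M.h l), M.h_mul_u hφ, mul_assoc _ _ M.z, ← mul_assoc, M.u_mul hφ, mul_assoc _ M.z,
      ← mul_assoc M.z, M.z_mul_u hφ, mul_assoc _ M.z, ← mul_assoc (M.u a b c), M.u_mul hφ,
      Model.z, M.h_mul, M.h_mul] at hv
    obtain ⟨e1, -, e3, -⟩ := M.u_h_inj hv
    have e4 := (M.u_h_inj h2).2.1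
    simp only [mul_zero, map_zero, zero_mul, sub_zero] at e4
    rcases hφ.sq_eq_one l.ne_zero (mul_right_cancel₀ h4 (by linear_combination e4)) with el | el <;>
      simp [el] at e1 e3
    · obtain rfl : x = 0 := by linear_combination -e1 + x * h3
      obtain rfl : w = -(y * a) := by simp at e3; linear_combination -e3 + w * h3
      exact ⟨(true, y), by rw [Units.val_eq_one.1 el, M.h_one, mul_one]; rfl⟩
    · obtain rfl : x = a := by linear_combination -e1 + (x - a) * h3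
      obtain rfl : w = c - b * x + y * x := by linear_combination -e3 + (w - c) * h3
      exact ⟨(false, y), by rw [show l = -1 from Units.ext el]; rfl⟩

end CfsgLib.RCS

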