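import Mathlib
import Cfsg.Agent.Lib.RCS.Defs

/-! # RCS/COUNT: the non-central elements of order three (plans/RCS.md) -/

set_option autoImplicit false
set_option linter.unusedSectionVars false

namespace CfsgLib.RCS

open CfsgLib.Ree Polynomial

variable {K : Type*} [Field K] [CharP K 3] [Finite K] {φ : K →+* K} {G : Type*} [Group G] (M : Model G K φ)

theorem ncard_quartic (hφ : IsTits φ) {l : K} (hl : l ≠ 0) (k₁ k₀ a : K) :
    {c : K | l * c ^ 2 + k₁ * c + k₀ = a * φ c}.ncard ≤ 4 := by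
  classical
  have hd : (C (φ l) * (C l * X ^ 2 + C k₁ * X + C k₀) ^ 2 + C (φ k₁ * a) * (C l * X ^ 2 + C k₁ * X + C k₀) +
      C (φ k₀ * a ^ 2) - C (φ a * a ^ 2) * X ^ 3).natDegree = 4 := by
    have : (C (φ l) * (C l * X ^ 2 + C k₁ * X + C k₀) ^ 2 + C (φ k₁ * a) * (C l * X ^ 2 + C k₁ * X + C k₀) +
      C (φ k₀ * a ^ 2) - C (φ a * a ^ 2) * X ^ 3) = C (φ l * l ^ 2) * X ^ 4 + C (2 * φ l * l * k₁ - φ a * a ^ 2) * X ^ 3 +
        C (φ l * (k₁ ^ 2 + 2 * l * k₀) + φ k₁ * a * l) * X ^ 2 + C (2 * φ l * k₁ * k₀ + φ k₁ * a * k₁) * X +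
        C (φ l * k₀ ^ 2 + φ k₁ * a * k₀ + φ k₀ * a ^ 2) := by
      simp only [map_add, map_mul, map_sub, map_pow, map_ofNat]; ring
    rw [this]
    compute_degree!
  refine (Set.ncard_le_ncard (fun c hc => ?_) (Finset.finite_toSet (roots _).toFinset)).trans
    (by rw [Set.ncard_coe_finset]; exact (Multiset.toFinset_card_le _).trans ((card_roots' _).trans hd.le))
  have h := congrArg φ hc
  simp only [map_add, map_mul, map_pow, hφ c] at h
  rw [Finset.mem_coe, Multiset.mem_toFinset, mem_roots (fun e => by rw [e] at hd; simp at hd), IsRoot]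
  simp only [eval_add, eval_mul, eval_sub, eval_pow, eval_C, eval_X, show l * c ^ 2 + k₁ * c + k₀ = a * φ c from hc]
  linear_combination a ^ 2 * h

/-- At most four elements of a coset of the centre of `U` in the big cell have a given trace. -/
theorem ncard_tr_le (hφ : IsTits φ) (l : Kˣ) (a b t : K) :
    {c : K | tr M (M.n * M.h l * M.u a b c) = t}.ncard ≤ 4 := by
  refine le_of_eq_of_le (congrArg _ (Set.ext fun c => ?_)) (ncard_quartic hφ l.ne_zero (l * a * b - φ l / l * φ a)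
    (-1 + l * (φ b * b + φ a * a ^ 3 * b - φ a ^ 2 * a ^ 4) - φ l / l * (φ a * a * b - b ^ 2) + l ^ 2 / φ l * a ^ 2 - t)
    (l * a))
  rw [Set.mem_ofPred_eq, Set.mem_ofPred_eq, tr_n_h_u, nrm_eq]
  constructor <;> intro h <;> linear_combination h

theorem isConj_T (hφ : IsTits φ) {b b' : K} (hb : b ≠ 0) (hb' : b' ≠ 0) (h : IsSquare (b' / b)) (c c' : K) :
    IsConj (M.u 0 b c) (M.u 0 b' c') := by
  obtain ⟨s, hs⟩ := h
  obtain ⟨l, hl⟩ := hφ.exists_div (c := s) (by rintro rfl; simp [hb, hb'] at hs)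
  refine (isConj_iff.2 ⟨M.h l, M.h_conj hφ l 0 b c⟩).trans (isConj_iff.2 ⟨M.u ((c' - l * c) / b') 0 0, ?_⟩)
  rw [mul_inv_eq_iff_eq_mul, hl, ← hs, div_mul_cancel₀ _ hb, mul_zero, M.u_mul hφ, M.u_mul hφ]
  congr 1 <;> simp
  field_simp
  ring

theorem sq_T (hφ : IsTits φ) (hq : 27 ≤ Nat.card K) {x : G} (hr : IsConj x x⁻¹)
    (hx : Nat.card (Subgroup.centralizer ({x} : Set G)) ≤ 2 * Nat.card K) {b : K} (hb : b ≠ 0) (c : K) :
    Sq x (M.u 0 b c) := by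
  have := M.finite
  have := Fintype.ofFinite K
  have := Fintype.ofFinite Kˣ
  by_contra hn
  have key : ∀ g a β γ β' γ', IsConj x (g * M.u a β γ) → IsConj x (g * M.u a β' γ') → β = β' := by
    intro g a β γ β' γ' h h'
    by_contra hne
    have e : ∀ β γ β' γ', ∃ w, (g * M.u a β γ)⁻¹ * (g * M.u a β' γ') = M.u 0 (β' - β) w := fun β γ β' γ' =>
      ⟨_, by rw [mul_inv_rev, mul_assoc, inv_mul_cancel_left, M.u_inv hφ, M.u_mul hφ]; congr 1 <;> ring⟩
    have h0 := sub_ne_zero.2 hne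
    obtain ⟨w, e1⟩ := e β' γ' β γ
    obtain ⟨w', e2⟩ := e β γ β' γ'
    rcases hφ.sq (b / (β - β')) with s | s
    · exact hn ((e1 ▸ sq_inv_mul hr h' h).of_isConj (isConj_T M hφ h0 hb s _ _))
    · exact hn ((e2 ▸ sq_inv_mul hr h h').of_isConj (isConj_T M hφ (sub_ne_zero.2 (Ne.symm hne)) hb
        (by rwa [← neg_sub, div_neg]) _ _))
  have hT : ∀ (v : G) (l : Kˣ) (a : K),
      {y | ∃ β γ, IsConj x (M.n * M.h l * M.u a β γ) ∧ y = v * (M.n * M.h l * M.u a β γ) * v⁻¹}.ncard ≤ 4 := by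
    intro v l a
    by_cases h : ∃ β γ, IsConj x (M.n * M.h l * M.u a β γ)
    · obtain ⟨β, γ, h⟩ := h
      refine (Set.ncard_le_ncard ?_).trans ((Set.ncard_image_le (f := fun c => v * (M.n * M.h l * M.u a β c) * v⁻¹)).trans
        (ncard_tr_le M hφ l a β (tr M x)))
      rintro _ ⟨β', γ', h', rfl⟩
      obtain rfl := key _ _ _ _ _ _ h h'
      exact ⟨γ', (tr_of_isConj M h').symm, rfl⟩
    · refine (Set.ncard_le_ncard (t := ∅) ?_).trans (by simp)
      rintro _ ⟨β, γ, h', -⟩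
      exact h ⟨β, γ, h'⟩
  have hC : {y | ∃ n ∈ (⊤ : Subgroup G), n * x * n⁻¹ = y} ⊆ (M.B hφ : Set G) ∪ ⋃ i : (K × K × K) × Kˣ × K,
      {y | ∃ β γ, IsConj x (M.n * M.h i.2.1 * M.u i.2.2 β γ) ∧ y = M.u i.1.1 i.1.2.1 i.1.2.2 *
        (M.n * M.h i.2.1 * M.u i.2.2 β γ) * (M.u i.1.1 i.1.2.1 i.1.2.2)⁻¹} := by
    rintro y ⟨n, -, hy⟩
    refine or_iff_not_imp_left.2 fun h => ?_
    obtain ⟨a, b, c, l, a', b', c', e⟩ := M.bigCell' hφ h
    have e' : y = M.u a b c * (M.n * M.h l⁻¹ * (M.u a' b' c' * M.u a b c)) * (M.u a b c)⁻¹ := by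
      rw [e, M.n_mul_h, inv_inv]; group
    rw [M.u_mul hφ] at e'
    exact Set.mem_iUnion.2 ⟨((a, b, c), l⁻¹, _), _, _,
      (isConj_iff.2 ⟨n, hy⟩).trans (isConj_iff.2 ⟨_, e'.symm⟩).symm, e'⟩
  have h1 := (Set.ncard_le_ncard hC).trans ((Set.ncard_union_le _ _).trans (Nat.add_le_add_left
    ((Set.ncard_iUnion_le_of_fintype _).trans (Finset.sum_le_card_nsmul _ _ 4 fun i _ => hT _ _ _)) _))
  have h2 := card_eq_ncard_mul ⊤ x
  rw [top_inf_eq, Subgroup.card_top, M.card_G hφ] at h2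
  have h3 := h2.le.trans (Nat.mul_le_mul h1 hx)
  rw [← Nat.card_coe_set_eq, SetLike.coe_sort_coe, M.card_B hφ, Finset.card_univ, ← Nat.card_eq_fintype_card,
    Nat.card_prod, Nat.card_prod, Nat.card_prod, Nat.card_prod, Nat.card_units, smul_eq_mul] at h3
  obtain ⟨q, hq'⟩ : ∃ q, Nat.card K = q + 27 := ⟨_, (Nat.sub_add_cancel hq).symm⟩
  rw [hq', show q + 27 - 1 = q + 26 from rfl] at h3
  have h4 : (q + 27) ^ 3 + 1 ≤ (1 + (q + 27) * 4) * (2 * (q + 27)) :=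
    Nat.le_of_mul_le_mul_left (h3.trans_eq (by ring)) (show 0 < (q + 27) ^ 3 * (q + 26) by positivity)
  nlinarith [Nat.zero_le (q ^ 3), Nat.zero_le (q ^ 2)]

end CfsgLib.RCS
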