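import Mathlib
import Cfsg.Agent.Lib.RCS.Defs
import Cfsg.Agent.Lib.RCS.Cent

/-! # RCS/CROSS: a cross-section of the regular classes (plans/RCS.md) -/

set_option autoImplicit false
set_option linter.unusedSectionVars false

namespace CfsgLib.RCS

open CfsgLib.Ree

/-- The classes meeting a self-centralising abelian subgroup in elements of order greater than two. -/
theorem ncard_classes_mul_le {G : Type*} [Group G] [Finite G] {T : Subgroup G} (hT : SC T)
    (hc : ∀ a ∈ T, ∀ b ∈ T, a * b = b * a) :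
    (ConjClasses.mk '' {a | a ∈ T ∧ ¬ orderOf a ∣ 2}).ncard * Nat.card (Subgroup.normalizer (T : Set G)) ≤
      {a | a ∈ T ∧ ¬ orderOf a ∣ 2}.ncard * Nat.card T := by
  classical
  set S : Set G := {a | a ∈ T ∧ ¬ orderOf a ∣ 2} with hS
  set N := Subgroup.normalizer (T : Set G) with hN
  have hfin : S.Finite := Set.toFinite _
  have hsq : ∀ a ∈ S, a * a ≠ 1 := fun a ha e => ha.2 (orderOf_dvd_of_pow_eq_one (by rw [pow_two, e]))
  have key : ∀ c ∈ hfin.toFinset.image ConjClasses.mk,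
      Nat.card N ≤ (hfin.toFinset.filter fun a => ConjClasses.mk a = c).card * Nat.card T := by
    intro c hc'
    obtain ⟨a, ha, rfl⟩ := Finset.mem_image.1 hc'
    rw [Set.Finite.mem_toFinset] at ha
    have e : N ⊓ Subgroup.centralizer {a} = T := by
      rw [hT a ha.1 (hsq a ha)]
      exact inf_eq_right.2 Subgroup.le_normalizer
    rw [card_eq_ncard_mul N a, e]
    refine Nat.mul_le_mul_right _ ?_
    rw [← Set.ncard_coe_finset]
    refine Set.ncard_le_ncard ?_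
    rintro _ ⟨n, hn, rfl⟩
    rw [Finset.coe_filter]
    refine ⟨(Set.Finite.mem_toFinset _).2 ⟨(Subgroup.mem_normalizer_iff.1 hn a).1 ha.1, by rw [orderOf_conj]; exact ha.2⟩, ?_⟩
    exact (ConjClasses.mk_eq_mk_iff_isConj.2 (isConj_iff.2 ⟨n, rfl⟩)).symm
  have e1 : (ConjClasses.mk '' S).ncard = (hfin.toFinset.image ConjClasses.mk).card := by
    rw [← Set.ncard_coe_finset, Finset.coe_image, Set.Finite.coe_toFinset]
  rw [e1, Set.ncard_eq_toFinset_card S hfin, Finset.card_eq_sum_card_image ConjClasses.mk hfin.toFinset, Finset.sum_mul,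
    ← smul_eq_mul, ← Finset.sum_const]
  exact Finset.sum_le_sum key

variable {K : Type*} [Field K] [CharP K 3] [Finite K] {φ : K →+* K} {G : Type*} [Group G] (M : Model G K φ)

include M in
theorem ncard_reg_classes (hφ : IsTits φ) {m : ℕ} (hm : 1 ≤ m) (hK : Nat.card K = 3 ^ (2 * m + 1)) :
    (ConjClasses.mk '' {x : G | Reg x}).ncard + 2 ≤ Nat.card K := by
  classical
  have := M.finite
  obtain ⟨A₁, A₂, h₁, h₂, c₁, c₂, -, -, hc⟩ := M.exists_two_tori hφ hm hK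
  have h3 : 3 ^ (m + 1) ≤ 3 ^ (2 * m + 1) := Nat.pow_le_pow_right (by norm_num) (by omega)
  have h27 : 3 ^ 3 ≤ 3 ^ (2 * m + 1) := Nat.pow_le_pow_right (by norm_num) (by omega)
  have hq : 3 < Nat.card K := by omega
  have hsum : Nat.card A₁ + Nat.card A₂ = 2 * Nat.card K + 2 := by omega
  have hA : ∀ A : Subgroup G, IsAniso (Nat.card K) A →
      6 * (ConjClasses.mk '' {a | a ∈ A ∧ ¬ orderOf a ∣ 2}).ncard + 1 ≤ Nat.card A := by
    intro A h
    have hcy := h.cyclic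
    have h1 := ncard_classes_mul_le h.sc (fun a ha b hb => by
      have := IsCyclic.isMulCommutative (α := A)
      exact congrArg Subtype.val (mul_comm' (⟨a, ha⟩ : A) ⟨b, hb⟩))
    rw [(M.card_aniso hφ hm hK h).2, ← mul_assoc] at h1
    have h2 := Nat.le_of_mul_le_mul_right h1 Nat.card_pos
    have h4 : {a | a ∈ A ∧ ¬ orderOf a ∣ 2}.ncard < (A : Set G).ncard :=
      Set.ncard_lt_ncard ⟨fun a ha => ha.1, fun hh => (hh A.one_mem).2 (by simp)⟩
    rw [← Nat.card_coe_set_eq (A : Set G)] at h4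
    change _ < Nat.card A at h4
    omega
  have k1 := ncard_classes_mul_le (M.sc_H hφ) (fun a ha b hb => M.H_comm ha hb)
  rw [M.normalizer_H hφ hq, M.card_N hφ, M.card_H, ← mul_assoc] at k1
  have k1' := Nat.le_of_mul_le_mul_right k1 (by omega)
  have k2 := ncard_classes_mul_le (M.sc_Tp hφ) (fun a ha b hb => M.Tp_comm hφ ha hb)
  rw [M.normalizer_Tp hφ, M.card_normalizer_V hφ, M.card_Tp hφ, ← mul_assoc] at k2
  have k2' := Nat.le_of_mul_le_mul_right k2 (by omega)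
  have n1 := M.ncard_H_sq hφ
  have n2 := M.ncard_Tp_sq hφ
  have k3 := hA A₁ h₁
  have k4 := hA A₂ h₂
  have hsub : ConjClasses.mk '' {x : G | Reg x} ⊆
      ((ConjClasses.mk '' {a | a ∈ M.H ∧ ¬ orderOf a ∣ 2} ∪ ConjClasses.mk '' {a | a ∈ M.Tp hφ ∧ ¬ orderOf a ∣ 2}) ∪
        ConjClasses.mk '' {a | a ∈ A₁ ∧ ¬ orderOf a ∣ 2}) ∪ ConjClasses.mk '' {a | a ∈ A₂ ∧ ¬ orderOf a ∣ 2} := by
    rintro _ ⟨x, hx, rfl⟩
    obtain ⟨g, hg⟩ := reg_tori M hφ h₁ h₂ hc hx
    have ho : ¬ orderOf (g * x * g⁻¹) ∣ 2 := by rw [orderOf_conj]; exact Reg.not_dvd_two hx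
    have he : ConjClasses.mk (g * x * g⁻¹) = ConjClasses.mk x :=
      (ConjClasses.mk_eq_mk_iff_isConj.2 (isConj_iff.2 ⟨g, rfl⟩)).symm
    rcases hg with hg | hg | hg | hg
    · exact Or.inl (Or.inl (Or.inl ⟨_, ⟨hg, ho⟩, he⟩))
    · exact Or.inl (Or.inl (Or.inr ⟨_, ⟨hg, ho⟩, he⟩))
    · exact Or.inl (Or.inr ⟨_, ⟨hg, ho⟩, he⟩)
    · exact Or.inr ⟨_, ⟨hg, ho⟩, he⟩
  have h5 := (Set.ncard_le_ncard hsub).trans ((Set.ncard_union_le _ _).trans (Nat.add_le_add_right
    ((Set.ncard_union_le _ _).trans (Nat.add_le_add_right (Set.ncard_union_le _ _) _)) _))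
  omega

theorem reg_of_tr (hφ : IsTits φ) {y : G} (h1 : tr M y ≠ 1) (h2 : tr M y ≠ -1) : Reg y := by
  have := M.finite
  refine ⟨?_, fun h3 => ?_⟩
  · by_contra hle
    have hp := orderOf_pos y
    have : orderOf y = 1 ∨ orderOf y = 2 := by omega
    rcases this with h | h
    · rw [orderOf_eq_one_iff] at h
      exact h1 (by rw [h, ← M.u_zero, tr_u])
    · have hy1 : y ≠ 1 := by rintro rfl; simp at h
      have hy2 : y * y = 1 := by rw [← pow_two, ← h, pow_orderOf_eq_one]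
      refine h2 ?_
      rw [← tr_of_isConj M (M.isConj_z hφ hφ.sq hy1 hy2), ← tr_u_z M 0 0 0, M.u_zero, one_mul]
  · obtain ⟨g, hg, -⟩ := M.exists_conj_mem_B_of_comm hφ h3 (y := y) rfl
    have e : tr M y = tr M (g * y * g⁻¹) := tr_of_isConj M (isConj_iff.2 ⟨g, rfl⟩)
    rcases M.three_dvd_cases hφ hg (by rwa [orderOf_conj]) with ⟨b, c, -, h⟩ | ⟨a, b, c, -, h⟩ | ⟨a, b, c, -, h⟩
    · exact h1 (by rw [e, h, tr_u])
    · exact h1 (by rw [e, h, tr_u])
    · exact h2 (by rw [e, h, tr_u_z])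

/-- Every regular class contains an element `n h(±1) u(0,0,c)`. -/
theorem cross (hφ : IsTits φ) {m : ℕ} (hm : 1 ≤ m) (hK : Nat.card K = 3 ^ (2 * m + 1)) {x : G} (hx : Reg x) :
    ∃ (l : Kˣ) (c : K), (l = 1 ∨ l = -1) ∧ c ≠ 0 ∧ IsConj x (M.n * M.h l * M.u 0 0 c) := by
  classical
  have := M.finite
  have hex : ∀ s : K, s ≠ 0 → ∃ (l : Kˣ) (c : K), (l = 1 ∨ l = -1) ∧ c ≠ 0 ∧ (l : K) * c ^ 2 = s := by
    intro s hs
    rcases hφ.sq s with ⟨c, hc⟩ | ⟨c, hc⟩
    · exact ⟨1, c, Or.inl rfl, by rintro rfl; simp [hs] at hc, by simp [hc, pow_two]⟩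
    · refine ⟨-1, c, Or.inr rfl, by rintro rfl; simp [hs] at hc, ?_⟩
      rw [pow_two, ← hc]; simp
  choose! l c hl hc hs using hex
  let S : Set K := {0, -1}ᶜ
  let f : K → ConjClasses G := fun s => ConjClasses.mk (M.n * M.h (l s) * M.u 0 0 (c s))
  have hS0 : ∀ s ∈ S, s ≠ 0 := fun s h e => h (Or.inl e)
  have hS1 : ∀ s ∈ S, s ≠ -1 := fun s h e => h (Or.inr e)
  have htr : ∀ s ∈ S, tr M (M.n * M.h (l s) * M.u 0 0 (c s)) = -1 + s := fun s h => by
    rw [tr_n_h_c, hs s (hS0 s h)]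
  have hinj : Set.InjOn f S := by
    intro s h s' h' e
    have := tr_of_isConj M (ConjClasses.mk_eq_mk_iff_isConj.1 e)
    rw [htr s h, htr s' h'] at this
    exact add_left_cancel this
  have hsub : f '' S ⊆ ConjClasses.mk '' {x : G | Reg x} := by
    rintro _ ⟨s, h, rfl⟩
    refine ⟨_, reg_of_tr M hφ ?_ ?_, rfl⟩
    · rw [htr s h]
      intro e
      exact hS1 s h (by linear_combination e + three_eq_zero K)
    · rw [htr s h]
      intro e
      exact hS0 s h (by linear_combination e)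
  have hcard : S.ncard + 2 = Nat.card K := by
    have := Set.ncard_add_ncard_compl ({0, -1} : Set K)
    rw [Set.ncard_pair (by simp)] at this
    rw [← this, add_comm]
  have hle := ncard_reg_classes M hφ hm hK
  have heq := Set.eq_of_subset_of_ncard_le hsub (by rw [hinj.ncard_image]; omega)
  have hx' : ConjClasses.mk x ∈ f '' S := by rw [heq]; exact ⟨x, hx, rfl⟩
  obtain ⟨s, h, e⟩ := hx'
  exact ⟨l s, c s, hl s (hS0 s h), hc s (hS0 s h), (ConjClasses.mk_eq_mk_iff_isConj.1 e).symm⟩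

end CfsgLib.RCS
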