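import Mathlib
import Cfsg.Agent.Lib.RCS.Defs
import Cfsg.Agent.Lib.Char.Ortho
import Cfsg.Agent.Lib.Char.Kernel

/-! # RCS/DEG: the minimal character degree (plans/RCS.md) -/

set_option autoImplicit false
set_option linter.unusedSectionVars false

namespace CfsgLib.RCS

open CfsgLib.Ree Cfsg CfsgLib.Char

variable {K : Type*} [Field K] [CharP K 3] [Finite K] {φ : K →+* K} {G : Type*} [Group G] (M : Model G K φ)

namespace Dg

/-- The abelian subgroup of exponent three as a homomorphic image. -/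
def f2 (hφ : IsTits φ) : Multiplicative (K × K) →* G where
  toFun p := M.u 0 p.toAdd.1 p.toAdd.2
  map_one' := M.u_zero
  map_mul' p q := by rw [M.u_mul hφ]; simp

/-- The centre of the Sylow 3-subgroup as a homomorphic image. -/
def f1 (hφ : IsTits φ) : Multiplicative K →* G where
  toFun p := M.u 0 0 p.toAdd
  map_one' := M.u_zero
  map_mul' p q := by rw [M.u_mul hφ]; simp

theorem conj_X (hφ : IsTits φ) {c : K} (hc : c ≠ 0) : IsConj (M.u 0 0 1) (M.u 0 0 c) :=
  isConj_iff.2 ⟨M.h (Units.mk0 c hc), by rw [M.h_conj hφ]; simp⟩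

theorem conj_T (hφ : IsTits φ) {b : K} (hb : b ≠ 0) (c : K) : IsConj (M.u 0 b 0) (M.u 0 b c) := by
  refine isConj_iff.2 ⟨M.u (c / b) 0 0, ?_⟩
  rw [mul_inv_eq_iff_eq_mul, M.u_mul hφ, M.u_mul hφ]
  congr 1 <;> simp
  field_simp
  ring

end Dg

include M in
theorem deg_ge (hφ : IsTits φ) (hq : 3 < Nat.card K) {χ : G → ℂ} (hχ : IsIrrCharacter G χ) (h1 : χ ≠ fun _ => 1) :
    (Nat.card K : ℝ) * (Nat.card K - 1) ≤ ‖χ 1‖ := by
  classical
  have := M.finite
  let _ : Fintype K := Fintype.ofFinite K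
  have hcf := isClassFunction_of_isIrr hχ
  have hch := isCharacter_of_isIrr hχ
  obtain ⟨ψ, hψ⟩ : ∃ ψ : AddChar K ℂ, ψ 1 ≠ 1 := AddChar.exists_apply_ne_zero.2 one_ne_zero
  have hψ0 : ψ ≠ 0 := by rintro rfl; simp at hψ
  have hsum : ∑ c, (starRingEnd ℂ) (ψ c) = 0 := by
    rw [← map_sum, AddChar.sum_eq_zero_iff_ne_zero.2 hψ0, map_zero]
  let lam : Multiplicative (K × K) →* ℂ := ψ.toMonoidHom.comp (AddMonoidHom.toMultiplicative (AddMonoidHom.snd K K))
  obtain ⟨m, hm⟩ := exists_classInner_eq_nat (isCharacter_comp (Dg.f2 M hφ) hch) (isCharacter_of_isIrr (isIrr_monoidHom lam))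
  obtain ⟨k, hk⟩ := exists_classInner_eq_nat (isCharacter_comp (Dg.f1 M hφ) hch) isCharacter_one
  have hm' := card_mul_classInner (fun h => χ (Dg.f2 M hφ h)) lam
  have hk' := card_mul_classInner (fun h => χ (Dg.f1 M hφ h)) (fun _ => 1)
  rw [hm] at hm'
  rw [hk] at hk'
  have hX : ∀ c : K, c ≠ 0 → χ (M.u 0 0 c) = χ (M.u 0 0 1) := fun c hc =>
    (classFun_eq_of_isConj hcf (Dg.conj_X M hφ hc)).symm
  have e1 : ∑ g : Multiplicative K, χ (Dg.f1 M hφ g) * (starRingEnd ℂ) 1 =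
      χ 1 + ((Nat.card K : ℂ) - 1) * χ (M.u 0 0 1) := by
    rw [← (Multiplicative.ofAdd (α := K)).sum_comp, ← Finset.add_sum_erase _ _ (Finset.mem_univ 0)]
    rw [Finset.sum_congr rfl (g := fun _ => χ (M.u 0 0 1))]
    · rw [Finset.sum_const, Finset.card_erase_of_mem (Finset.mem_univ _), Finset.card_univ, nsmul_eq_mul,
        Nat.cast_sub Fintype.card_pos, Nat.card_eq_fintype_card]
      simp
    · intro c hc
      rw [map_one, mul_one]
      exact hX c (Finset.mem_erase.1 hc).1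
  have e2 : ∑ g : Multiplicative (K × K), χ (Dg.f2 M hφ g) * (starRingEnd ℂ) (lam g) = χ 1 - χ (M.u 0 0 1) := by
    rw [← (Multiplicative.ofAdd (α := K × K)).sum_comp, Fintype.sum_prod_type,
      ← Finset.add_sum_erase _ _ (Finset.mem_univ 0)]
    change ∑ c, χ (M.u 0 0 c) * (starRingEnd ℂ) (ψ c) +
      ∑ b ∈ Finset.univ.erase 0, ∑ c, χ (M.u 0 b c) * (starRingEnd ℂ) (ψ c) = _
    rw [Finset.sum_eq_zero (s := Finset.univ.erase 0), add_zero, ← Finset.add_sum_erase _ _ (Finset.mem_univ 0)]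
    · rw [← Finset.add_sum_erase _ _ (Finset.mem_univ 0)] at hsum
      rw [Finset.sum_congr rfl (g := fun c => χ (M.u 0 0 1) * (starRingEnd ℂ) (ψ c)), ← Finset.mul_sum,
        eq_neg_of_add_eq_zero_right hsum, M.u_zero]
      · simp [sub_eq_add_neg]
      · intro c hc
        rw [hX c (Finset.mem_erase.1 hc).1]
    · intro b hb
      rw [Finset.sum_congr rfl (g := fun c => χ (M.u 0 b 0) * (starRingEnd ℂ) (ψ c)), ← Finset.mul_sum, hsum, mul_zero]
      intro c _
      rw [classFun_eq_of_isConj hcf (Dg.conj_T M hφ (Finset.mem_erase.1 hb).1 c)]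
  rw [e1] at hk'
  rw [e2] at hm'
  have c1 : Nat.card (Multiplicative K) = Nat.card K := rfl
  have c2 : Nat.card (Multiplicative (K × K)) = Nat.card K * Nat.card K := Nat.card_prod K K
  rw [c1] at hk'
  rw [c2, Nat.cast_mul] at hm'
  have hq0 : (Nat.card K : ℂ) ≠ 0 := by exact_mod_cast (by omega : Nat.card K ≠ 0)
  have e3 : χ 1 = k + (Nat.card K : ℂ) * (Nat.card K - 1) * m := by
    apply mul_left_cancel₀ hq0
    linear_combination -hk' - ((Nat.card K : ℂ) - 1) * hm'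
  have hm0 : m ≠ 0 := by
    rintro rfl
    have hs := M.isSimpleGroup hφ hφ.sq hq
    have hker : M.u 0 0 1 ∈ charKer χ := (mem_charKer hch).2 (by simp at hm'; linear_combination hm')
    rcases (charKer_normal hcf).eq_bot_or_eq_top with hb | hb
    · rw [hb, Subgroup.mem_bot] at hker
      exact one_ne_zero (M.u_eq_one hker).2.2
    · exact h1 (irr_eq_one_of_charKer_eq_top hχ hb)
  have e4 : χ 1 = ((k + (Nat.card K : ℝ) * (Nat.card K - 1) * m : ℝ) : ℂ) := by rw [e3]; push_cast; ring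
  have hq1 : (3 : ℝ) < Nat.card K := by exact_mod_cast hq
  have hm1 : (1 : ℝ) ≤ m := by exact_mod_cast Nat.one_le_iff_ne_zero.2 hm0
  have hk0 : (0 : ℝ) ≤ k := Nat.cast_nonneg _
  have hp : 0 ≤ (Nat.card K : ℝ) * (Nat.card K - 1) := mul_nonneg (by linarith) (by linarith)
  rw [e4, Complex.norm_real]
  refine le_trans ?_ (le_abs_self _)
  nlinarith

end CfsgLib.RCS
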