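import Mathlib
import Cfsg.Agent.Lib.RCS.Defs
import Cfsg.Agent.Lib.Sz.StructConst

/-! # RCS/MIX: products of classes with small centralisers (plans/RCS.md) -/

set_option autoImplicit false
set_option linter.unusedSectionVars false

namespace CfsgLib.RCS

open CfsgLib.Ree Cfsg CfsgLib.Char

theorem sq_of_small {G : Type*} [Group G] [Finite G] {d : ℝ} (hd0 : 0 < d)
    (hd : ∀ χ : G → ℂ, IsIrrCharacter G χ → (χ ≠ fun _ => 1) → d ≤ ‖χ 1‖) {x g : G}
    (h : (Nat.card (Subgroup.centralizer ({x} : Set G)) : ℝ) ^ 2 * Nat.card (Subgroup.centralizer ({g} : Set G)) < d ^ 2) :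
    Sq x g := by
  classical
  let _ : Fintype G := Fintype.ofFinite G
  by_contra hn
  have h0 : Sz.cnt x x g⁻¹ = 0 := by
    rw [Sz.cnt, Finset.card_eq_zero, Finset.filter_eq_empty_iff]
    intro p _ e
    refine hn ⟨p.1, p.2, ?_⟩
    rw [← mul_assoc, mul_inv_eq_one] at e
    exact e.symm
  have h1 := Sz.tripleSum_reg x x g⁻¹
  rw [h0, Nat.cast_zero, mul_zero, regChar_eq_sum, map_sum] at h1
  have h2 : ∀ χ : IrrCharacter G, Sz.tripleSum x x g⁻¹ ((χ : G → ℂ) 1 • (χ : G → ℂ)) =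
      (Nat.card G : ℂ) ^ 2 * ((χ : G → ℂ) x * (χ : G → ℂ) x * (χ : G → ℂ) g⁻¹ / (χ : G → ℂ) 1) := by
    intro χ
    have := irr_one_ne_zero χ.2
    rw [map_smul, Sz.tripleSum_irr χ.2, smul_eq_mul]
    field_simp
  simp only [h2] at h1
  rw [← Finset.mul_sum, mul_eq_zero] at h1
  have h3 := h1.resolve_left (pow_ne_zero _ natCard_ne_zero)
  rw [← Finset.add_sum_erase _ _ (Finset.mem_univ (irrOne G))] at h3
  simp only [irrOne_apply, mul_one, div_one] at h3
  set cx : ℝ := (Nat.card (Subgroup.centralizer ({x} : Set G)) : ℝ) with hcx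
  set cg : ℝ := (Nat.card (Subgroup.centralizer ({g} : Set G)) : ℝ) with hcg
  have hcg0 : 0 ≤ cg := Nat.cast_nonneg _
  have hcx0 : 0 ≤ cx := Nat.cast_nonneg _
  have hg : ∀ χ : IrrCharacter G, ‖(χ : G → ℂ) g⁻¹‖ ≤ Real.sqrt cg := by
    intro χ
    rw [char_inv (irr_isCharacter χ), Complex.norm_conj]
    refine Real.le_sqrt_of_sq_le ?_
    rw [hcg, ← sum_normSq_irr g]
    exact Finset.single_le_sum (f := fun χ : IrrCharacter G => ‖(χ : G → ℂ) g‖ ^ 2) (fun _ _ => by positivity) (Finset.mem_univ χ)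
  have h4 : (1 : ℝ) ≤ cx * (Real.sqrt cg / d) := by
    have e : (1 : ℝ) = ‖∑ χ ∈ Finset.univ.erase (irrOne G),
        (χ : G → ℂ) x * (χ : G → ℂ) x * (χ : G → ℂ) g⁻¹ / (χ : G → ℂ) 1‖ := by
      rw [eq_neg_of_add_eq_zero_right h3]; simp
    rw [e]
    refine (norm_sum_le _ _).trans ?_
    refine le_trans (Finset.sum_le_sum (g := fun χ : IrrCharacter G => ‖(χ : G → ℂ) x‖ ^ 2 * (Real.sqrt cg / d)) ?_) ?_
    · intro χ hχ
      have hne : (χ : G → ℂ) ≠ fun _ => 1 := fun e => (Finset.mem_erase.1 hχ).1 (Subtype.ext e)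
      have hd1 := hd _ χ.2 hne
      rw [norm_div, norm_mul, norm_mul, ← pow_two, mul_div_assoc]
      refine mul_le_mul_of_nonneg_left ?_ (by positivity)
      exact div_le_div₀ (Real.sqrt_nonneg _) (hg χ) hd0 hd1
    · rw [← Finset.sum_mul]
      refine mul_le_mul_of_nonneg_right ?_ (by positivity)
      rw [hcx, ← sum_normSq_irr x]
      exact Finset.sum_le_sum_of_subset_of_nonneg (Finset.erase_subset _ _) (fun _ _ _ => by positivity)
  rw [← mul_div_assoc, le_div_iff₀ hd0, one_mul] at h4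
  have h5 : d ^ 2 ≤ (cx * Real.sqrt cg) ^ 2 := pow_le_pow_left₀ hd0.le h4 2
  rw [mul_pow, Real.sq_sqrt hcg0] at h5
  exact absurd h (not_lt.2 h5)

end CfsgLib.RCS
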