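import Mathlib
import Cfsg.Agent.Lib.RCS.Cross
import Cfsg.Agent.Lib.RCS.Deg
import Cfsg.Agent.Lib.RCS.Mix
import Cfsg.Agent.Lib.RCS.Count
import Cfsg.Agent.Lib.Ree.Syl2

/-! # Squares of regular classes in the small Ree groups -/

set_option autoImplicit false
set_option linter.unusedSectionVars false

namespace CfsgLib.RCS

open CfsgLib.Ree

variable {K : Type*} [Field K] [CharP K 3] [Finite K] {φ : K →+* K} {G : Type*} [Group G] (M : Model G K φ)

theorem z_conj_y (hφ : IsTits φ) (l : Kˣ) (c : K) :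
    M.z * (M.n * M.h l * M.u 0 0 c) * M.z⁻¹ = M.n * M.h l * M.u 0 0 (-c) := by
  have h1 : M.z * M.h l = M.h l * M.z := M.h_comm _ _
  have h2 := M.z_mul_u hφ 0 0 c
  rw [neg_zero] at h2
  calc _ = (M.z * M.n) * M.h l * M.u 0 0 c * M.z⁻¹ := by group
    _ = M.n * (M.z * M.h l) * M.u 0 0 c * M.z⁻¹ := by rw [← M.n_mul_z]; group
    _ = M.n * M.h l * (M.z * M.u 0 0 c) * M.z⁻¹ := by rw [h1]; group
    _ = _ := by rw [h2]; group

theorem u00_inv (hφ : IsTits φ) (c : K) : (M.u 0 0 c)⁻¹ = M.u 0 0 (-c) := by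
  rw [M.u_inv hφ]; simp

theorem isConj_y_inv (hφ : IsTits φ) (l : Kˣ) (c : K) :
    IsConj (M.n * M.h l * M.u 0 0 c) (M.n * M.h l * M.u 0 0 c)⁻¹ := by
  have h1 : IsConj (M.n * M.h l * M.u 0 0 c) (M.n * M.h l * M.u 0 0 (-c)) :=
    isConj_iff.2 ⟨_, z_conj_y M hφ l c⟩
  refine h1.trans (isConj_iff.2 ⟨M.u 0 0 (-c), ?_⟩)
  rw [mul_inv_rev, mul_inv_rev, u00_inv M hφ c, M.h_inv, M.n_inv, ← M.n_mul_h]
  group

include M in
theorem sq_all (hφ : IsTits φ) {m : ℕ} (hm : 1 ≤ m) (hK : Nat.card K = 3 ^ (2 * m + 1)) {x : G} (hx : Reg x)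
    {g : G} (hg : g ≠ 1) : Sq x g := by
  have := M.finite
  have hq : 27 ≤ Nat.card K := by
    rw [hK]
    exact le_trans (by norm_num) (Nat.pow_le_pow_right three_pos (show 3 ≤ 2 * m + 1 by omega))
  obtain ⟨l, c, hl, hc, hy⟩ := cross M hφ hm hK hx
  have hr : IsConj x x⁻¹ := (hy.trans (isConj_y_inv M hφ l c)).trans (isConj_inv_inv hy).symm
  have hcx := card_cent_reg M hφ hm hK hx
  rcases cases_g M hφ hm hK hg with h2 | ⟨c', hc', h⟩ | ⟨b, c', hb, h⟩ | h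
  · -- involutions
    have hx1 : M.u 0 1 0 * M.u 0 0 c = M.u 0 0 c * M.u 0 1 0 := by
      rw [M.u_mul hφ, M.u_mul hφ]; simp
    have hh : M.u 0 1 0 * M.h l = M.h l * M.u 0 1 0 := by
      rcases hl with rfl | rfl
      · rw [M.h_one, mul_one, one_mul]
      · exact (M.z_mul_x hφ 1).symm
    have key : M.u 0 1 0 * (M.n * M.h l * M.u 0 0 c) * (M.u 0 1 0)⁻¹ * (M.n * M.h l * M.u 0 0 c)⁻¹ =
        M.e hφ * M.n := by
      rw [← M.x1_conj_n hφ]
      calc _ = M.u 0 1 0 * M.n * M.h l * (M.u 0 0 c * (M.u 0 1 0)⁻¹ * (M.u 0 0 c)⁻¹) * (M.h l)⁻¹ * M.n⁻¹ := by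
            group
        _ = M.u 0 1 0 * M.n * (M.h l * (M.u 0 1 0)⁻¹ * (M.h l)⁻¹) * M.n⁻¹ := by
            have : M.u 0 0 c * (M.u 0 1 0)⁻¹ * (M.u 0 0 c)⁻¹ = (M.u 0 1 0)⁻¹ := by
              rw [mul_inv_eq_iff_eq_mul, mul_inv_eq_iff_eq_mul, mul_assoc, ← hx1]; group
            rw [this]; group
        _ = _ := by
            have : M.h l * (M.u 0 1 0)⁻¹ * (M.h l)⁻¹ = (M.u 0 1 0)⁻¹ := by
              rw [mul_inv_eq_iff_eq_mul, mul_inv_eq_iff_eq_mul, mul_assoc, ← hh]; group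
            rw [this, M.n_inv]
    have hs : Sq x (M.e hφ * M.n) := by
      rw [← key]
      exact sq_mul_inv hr (hy.trans (isConj_iff.2 ⟨_, rfl⟩)) hy
    have h1 : M.e hφ * M.n ≠ 1 := fun e => by
      have : M.e hφ = M.n := by rw [← M.n_inv]; exact eq_inv_of_mul_eq_one_left e
      exact M.e_not_mem_Tp hφ (this ▸ M.n_mem_Tp hφ)
    have h2' : M.e hφ * M.n * (M.e hφ * M.n) = 1 := by
      calc _ = M.e hφ * (M.n * M.e hφ) * M.n := by group
        _ = M.e hφ * M.e hφ * (M.n * M.n) := by rw [← M.e_mul_n hφ]; group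
        _ = 1 := by rw [M.e_mul_e hφ, M.n_mul_n, one_mul]
    exact hs.of_isConj ((M.isConj_z hφ hφ.sq h1 h2').symm.trans (M.isConj_z hφ hφ.sq hg h2))
  · -- central elements of order three
    have hs := sq_inv_mul hr hy (hy.trans (isConj_iff.2 ⟨_, z_conj_y M hφ l c⟩))
    have e : (M.n * M.h l * M.u 0 0 c)⁻¹ * (M.n * M.h l * M.u 0 0 (-c)) = M.u 0 0 c := by
      calc _ = (M.u 0 0 c)⁻¹ * M.u 0 0 (-c) := by group
        _ = _ := by
          rw [u00_inv M hφ, M.u_mul hφ]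
          have := three_eq_zero K
          congr 1
          · simp
          · simp
          · simp only [map_zero]; linear_combination (-c) * this
    rw [e] at hs
    refine (hs.of_isConj (isConj_iff.2 ⟨M.h (Units.mk0 (c' / c) (div_ne_zero hc' hc)), ?_⟩)).of_isConj h
    rw [M.h_conj hφ]
    simp [div_mul_cancel₀ _ hc]
  · exact (sq_T M hφ hq hr hcx hb c').of_isConj h
  · have hq' : (27 : ℝ) ≤ Nat.card K := by exact_mod_cast hq
    refine sq_of_small (d := (Nat.card K : ℝ) * (Nat.card K - 1)) (by nlinarith)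
      (fun χ hχ h1 => deg_ge M hφ (by omega) hχ h1) ?_
    have a1 : (Nat.card (Subgroup.centralizer ({x} : Set G)) : ℝ) ≤ 2 * Nat.card K := by exact_mod_cast hcx
    have a2 : (Nat.card (Subgroup.centralizer ({g} : Set G)) : ℝ) ≤ 3 * Nat.card K := by exact_mod_cast h
    set q : ℝ := (Nat.card K : ℝ)
    calc _ ≤ (2 * q) ^ 2 * (3 * q) := by gcongr
      _ < _ := by
        have : 12 * q < (q - 1) ^ 2 := by nlinarith
        have hq2 : 0 < q ^ 2 := by positivity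
        nlinarith

end CfsgLib.RCS
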